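import Cfsg.Agent.H941.RC.Arith

/-!
# S4191, `OutAll`: the arithmetic, second part (helper941)
-/

set_option autoImplicit false

namespace Cfsg.Agent.H941.RC

open Finset Cfsg.Agent.H902 Cfsg.Agent.H902.Art

section valuations

variable {l q n : ℕ}

theorem fac_pow_sub (hl : l.Prime) (hl2 : l ≠ 2) (hq : 2 ≤ q) (hn : n ≠ 0) (h : l ∣ q - 1) :
    (q ^ n - 1).factorization l = (q - 1).factorization l + n.factorization l := by
  have := Fact.mk hl
  have hq' : ¬ l ∣ q := fun h' => hl.one_lt.ne' (Nat.dvd_one.1 (by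
    have := (Nat.dvd_sub_iff_right (show q - 1 ≤ q by omega) h').2 h
    rwa [show q - (q - 1) = 1 by omega] at this))
  have h1 := padicValNat.pow_sub_pow (p := l) (x := q) (y := 1) (hl.odd_of_ne_two hl2) (by omega) h hq' hn
  rw [one_pow] at h1
  rw [Nat.factorization_def _ hl, Nat.factorization_def _ hl, Nat.factorization_def _ hl, h1]

theorem fac_pow_add (hl : l.Prime) (hl2 : l ≠ 2) (hq : 2 ≤ q) (hn : Odd n) (h : l ∣ q + 1) :
    (q ^ n + 1).factorization l = (q + 1).factorization l + n.factorization l := by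
  have := Fact.mk hl
  have hq' : ¬ l ∣ q := fun h' => hl.one_lt.ne' (Nat.dvd_one.1 ((Nat.dvd_add_right h').1 h))
  have h1 := padicValNat.pow_add_pow (p := l) (x := q) (y := 1) (hl.odd_of_ne_two hl2) h hq' hn
  rw [one_pow] at h1
  rw [Nat.factorization_def _ hl, Nat.factorization_def _ hl, Nat.factorization_def _ hl, h1]

/-- the 2-part for even exponents -/
theorem fac_two (hq : 2 ≤ q) (hodd : Odd q) (hn : n ≠ 0) (he : Even n) :
    (q ^ n - 1).factorization 2 + 1 = (q + 1).factorization 2 + (q - 1).factorization 2 + n.factorization 2 := by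
  have h1 := padicValNat.pow_two_sub_pow (x := q) (y := 1) (n := n) (by omega)
    (by obtain ⟨t, rfl⟩ := hodd; omega) (by obtain ⟨t, rfl⟩ := hodd; omega) hn he
  rw [one_pow] at h1
  rw [Nat.factorization_def _ Nat.prime_two, Nat.factorization_def _ Nat.prime_two,
    Nat.factorization_def _ Nat.prime_two, Nat.factorization_def _ Nat.prime_two, h1]

theorem fac_gcd_left {a b : ℕ} (ha : a ≠ 0) : (Nat.gcd a b).factorization l ≤ a.factorization l :=
  le_of_dvd ha (Nat.gcd_dvd_left a b) l

theorem fac_gcd_right {a b : ℕ} (hb : b ≠ 0) : (Nat.gcd a b).factorization l ≤ b.factorization l :=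
  le_of_dvd hb (Nat.gcd_dvd_right a b) l

theorem one_le_fac (hl : l.Prime) (hn : n ≠ 0) (h : l ∣ n) : 1 ≤ n.factorization l :=
  (hl.dvd_iff_one_le_factorization hn).1 h

theorem sub_dvd (hq : 1 ≤ q) (k : ℕ) : q - 1 ∣ q ^ k - 1 := by
  have := Nat.sub_dvd_pow_sub_pow q 1 k
  rwa [one_pow] at this

theorem add_dvd (hq : 1 ≤ q) (k : ℕ) : q + 1 ∣ q ^ (2 * k) - 1 := by
  have h1 : q + 1 ∣ q ^ 2 - 1 := by
    refine ⟨q - 1, ?_⟩
    obtain ⟨t, rfl⟩ := Nat.exists_eq_add_of_le' hq
    rw [Nat.add_sub_cancel]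
    have : (t + 1) ^ 2 = (t + 1 + 1) * t + 1 := by ring
    rw [this, Nat.add_sub_cancel]
  rw [pow_mul]
  exact h1.trans (sub_dvd (Nat.one_le_pow _ _ hq) k)

end valuations

section num

theorem num_ne {X : Sh} {p f : ℕ} (hok : Ok X p f) (hp : p.Prime) (hf : f ≠ 0) : num X (p ^ f) ≠ 0 := by
  have hq : 2 ≤ p ^ f := hp.two_le.trans (Nat.le_self_pow hf p)
  have s : ∀ {k : ℕ}, k ≠ 0 → (p ^ f) ^ k - 1 ≠ 0 := fun hk => ne_sub hq hk
  have s1 : p ^ f - 1 ≠ 0 := by omega
  cases X with
  | L n => exact Finset.prod_ne_zero_iff.2 fun i _ => s (by omega)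
  | C n => exact Finset.prod_ne_zero_iff.2 fun i _ => s (by omega)
  | U n =>
    refine Finset.prod_ne_zero_iff.2 fun i _ => ?_
    split_ifs
    · exact s (by omega)
    · omega
  | D n => exact mul_ne_zero (s (by have : 4 ≤ n := hok; omega)) (Finset.prod_ne_zero_iff.2 fun i _ => s (by omega))
  | DD n => exact mul_ne_zero (by omega) (Finset.prod_ne_zero_iff.2 fun i _ => s (by omega))
  | G2 => simp only [num]; have h2 := s (k := 2) (by norm_num); have h6 := s (k := 6) (by norm_num); positivity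
  | F4 => 
    simp only [num]; have h2 := s (k := 2) (by norm_num); have h6 := s (k := 6) (by norm_num)
    have h8 := s (k := 8) (by norm_num); have h12 := s (k := 12) (by norm_num); positivity
  | E6 => 
    simp only [num]; have h2 := s (k := 2) (by norm_num); have h5 := s (k := 5) (by norm_num)
    have h6 := s (k := 6) (by norm_num)
    have h8 := s (k := 8) (by norm_num); have h9 := s (k := 9) (by norm_num); have h12 := s (k := 12) (by norm_num)
    positivity
  | E7 => 
    simp only [num]; have h2 := s (k := 2) (by norm_num); have h6 := s (k := 6) (by norm_num)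
    have h8 := s (k := 8) (by norm_num); have h10 := s (k := 10) (by norm_num); have h12 := s (k := 12) (by norm_num)
    have h14 := s (k := 14) (by norm_num); have h18 := s (k := 18) (by norm_num)
    positivity
  | E8 => 
    simp only [num]; have h2 := s (k := 2) (by norm_num); have h20 := s (k := 20) (by norm_num)
    have h8 := s (k := 8) (by norm_num); have h24 := s (k := 24) (by norm_num); have h12 := s (k := 12) (by norm_num)
    have h14 := s (k := 14) (by norm_num); have h18 := s (k := 18) (by norm_num); have h30 := s (k := 30) (by norm_num)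
    positivity
  | TE6 => 
    simp only [num]; have h2 := s (k := 2) (by norm_num)
    have h6 := s (k := 6) (by norm_num)
    have h8 := s (k := 8) (by norm_num); have h12 := s (k := 12) (by norm_num)
    positivity
  | TD4 => 
    simp only [num]; have h2 := s (k := 2) (by norm_num); have h6 := s (k := 6) (by norm_num); positivity
  | Sz => simp only [num]; positivity
  | Ree => simp only [num]; positivity
  | TF4 => simp only [num]; have h4 := s (k := 4) (by norm_num); positivity

variable {q n : ℕ}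

/-- the first and the last factor of `L n` -/
theorem dvd_L (hn : 3 ≤ n) : (q ^ 2 - 1) * (q ^ n - 1) ∣ num (.L n) q := by
  obtain ⟨m, rfl⟩ := Nat.exists_eq_add_of_le' hn
  simp only [num]
  rw [show m + 3 - 1 = (m + 1) + 1 by omega, prod_range_succ, prod_range_succ']
  refine mul_dvd_mul ?_ ?_
  · exact Dvd.intro_left _ rfl
  · rw [show m + 1 + 2 = m + 3 by omega]

theorem dvd_L2 (hn : 2 ≤ n) : q ^ 2 - 1 ∣ num (.L n) q := by
  simp only [num]
  exact Finset.dvd_prod_of_mem (fun i => q ^ (i + 2) - 1) (mem_range.2 (show 0 < n - 1 by omega))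

theorem dvd_C (hn : 2 ≤ n) : (q ^ 2 - 1) * (q ^ 4 - 1) ∣ num (.C n) q := by
  obtain ⟨m, rfl⟩ := Nat.exists_eq_add_of_le' hn
  simp only [num]
  rw [add_comm m 2, prod_range_add, prod_range_succ, prod_range_succ, prod_range_zero, one_mul]
  exact Dvd.intro _ rfl

theorem dvd_U (hn : 3 ≤ n) : (q ^ 2 - 1) * (if Even n then q ^ n - 1 else q ^ n + 1) ∣ num (.U n) q := by
  obtain ⟨m, rfl⟩ := Nat.exists_eq_add_of_le' hn
  simp only [num]
  rw [show m + 3 - 1 = (m + 1) + 1 by omega, prod_range_succ, prod_range_succ']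
  refine mul_dvd_mul ?_ ?_
  · refine (Dvd.intro_left _ rfl).trans (dvd_refl _)
  · rw [show m + 1 + 2 = m + 3 by omega]
    have : Even (m + 3) ↔ Even (m + 1) := by
      rw [show m + 3 = m + 1 + 2 by omega, Nat.even_add]
      simp
    simp only [this]
    exact dvd_refl _

theorem dvd_U2 (hn : 2 ≤ n) : q ^ 2 - 1 ∣ num (.U n) q := by
  simp only [num]
  have := Finset.dvd_prod_of_mem (fun i => (if Even i then q ^ (i + 2) - 1 else q ^ (i + 2) + 1))
    (mem_range.2 (show 0 < n - 1 by omega))
  simpa using this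

theorem dvd_D (hn : 4 ≤ n) : (q ^ 2 - 1) * (q ^ 4 - 1) * (q ^ 6 - 1) ∣ num (.D n) q := by
  obtain ⟨m, rfl⟩ := Nat.exists_eq_add_of_le' hn
  simp only [num]
  rw [show m + 4 - 1 = 3 + m by omega, prod_range_add, prod_range_succ, prod_range_succ, prod_range_succ, prod_range_zero,
    one_mul]
  exact (Dvd.intro _ rfl : (q ^ 2 - 1) * (q ^ 4 - 1) * (q ^ 6 - 1) ∣ _).mul_left _

theorem dvd_DD (hn : 4 ≤ n) : (q ^ 2 - 1) * (q ^ 4 - 1) * (q ^ 6 - 1) ∣ num (.DD n) q := by
  obtain ⟨m, rfl⟩ := Nat.exists_eq_add_of_le' hn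
  simp only [num]
  rw [show m + 4 - 1 = 3 + m by omega, prod_range_add, prod_range_succ, prod_range_succ, prod_range_succ, prod_range_zero,
    one_mul]
  exact (Dvd.intro _ rfl : (q ^ 2 - 1) * (q ^ 4 - 1) * (q ^ 6 - 1) ∣ _).mul_left _

end num

end Cfsg.Agent.H941.RC
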