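import Cfsg.Agent.H941.RC.ArithB
import Cfsg.Agent.H250.EqD.DdN

/-!
# S4191, `OutAll`: the arithmetic, third part (helper941)
-/

set_option autoImplicit false

namespace Cfsg.Agent.H941.RC

open Finset Cfsg.Agent.H902 Cfsg.Agent.H902.Art

theorem fac_prime_small {l a : ℕ} (hl : l.Prime) (ha : a.Prime) (h : l ≠ a) : a.factorization l = 0 :=
  fac_small hl fun h' => h ((Nat.prime_dvd_prime_iff_eq hl ha).1 h')

theorem fac_self {a : ℕ} (ha : a.Prime) : a.factorization a = 1 := ha.factorization_self

theorem fac_eight {l : ℕ} (hl : l.Prime) (hl2 : l ≠ 2) : (8 : ℕ).factorization l = 0 :=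
  fac_small hl fun h' => hl2 ((Nat.prime_dvd_prime_iff_eq hl Nat.prime_two).1 (hl.dvd_of_dvd_pow (show l ∣ 2 ^ 3 from h')))

theorem fac_four {l : ℕ} (hl : l.Prime) (hl2 : l ≠ 2) : (4 : ℕ).factorization l = 0 :=
  fac_small hl fun h' => hl2 ((Nat.prime_dvd_prime_iff_eq hl Nat.prime_two).1 (hl.dvd_of_dvd_pow (show l ∣ 2 ^ 2 from h')))

theorem fac_gcd_zero {l a b : ℕ} (ha : a ≠ 0) (h : a.factorization l = 0) : (Nat.gcd a b).factorization l = 0 :=
  Nat.le_zero.1 (h ▸ fac_gcd_left ha)

theorem fac_gcd_zero' {l a b : ℕ} (hb : b ≠ 0) (h : b.factorization l = 0) : (Nat.gcd a b).factorization l = 0 :=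
  Nat.le_zero.1 (h ▸ fac_gcd_right hb)

theorem fac_one' (l : ℕ) : (1 : ℕ).factorization l = 0 := by rw [Nat.factorization_one]; rfl

theorem fac_two_four : (4 : ℕ).factorization 2 = 2 := by
  rw [show (4 : ℕ) = 2 ^ 2 by norm_num, Nat.Prime.factorization_pow Nat.prime_two, Finsupp.single_eq_same]

theorem fac_two_eight : (8 : ℕ).factorization 2 = 3 := by
  rw [show (8 : ℕ) = 2 ^ 3 by norm_num, Nat.Prime.factorization_pow Nat.prime_two, Finsupp.single_eq_same]

theorem fac_two_three : (3 : ℕ).factorization 2 = 0 := fac_prime_small Nat.prime_two Nat.prime_three (by norm_num)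

theorem fac_two_two : (2 : ℕ).factorization 2 = 1 := fac_self Nat.prime_two

theorem fac_three_three : (3 : ℕ).factorization 3 = 1 := fac_self Nat.prime_three

/-- odd `l` -/
theorem arith_odd (X : Sh) {p f l : ℕ} (hp : p.Prime) (hf : f ≠ 0) (hok : Ok X p f) (hl : l.Prime) (hl2 : l ≠ 2) (hlp : l ≠ p)
    (h : l ∣ num X (p ^ f)) :
    f.factorization l + (tt X p).factorization l + 2 * (dd X (p ^ f)).factorization l < (num X (p ^ f)).factorization l := by
  have hq : 2 ≤ p ^ f := hp.two_le.trans (Nat.le_self_pow hf p)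
  have hN := num_ne hok hp hf
  have h20 := fac_prime_small hl Nat.prime_two hl2
  -- the case where the two small numbers are prime to `l`
  have gen : (X = .TD4 → l ≠ 3) → (tt X p).factorization l = 0 → (dd X (p ^ f)).factorization l = 0 →
      f.factorization l + (tt X p).factorization l + 2 * (dd X (p ^ f)).factorization l <
        (num X (p ^ f)).factorization l := by
    intro h3 h1 h2
    have := (gd_num X hok hl hl2 hp.two_le hf h3).2 h
    rw [h1, h2]
    omega
  have s : ∀ k, k ≠ 0 → l ∣ (p ^ f) ^ k - 1 → f.factorization l + 1 ≤ ((p ^ f) ^ k - 1).factorization l := fun k hk h =>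
    vsub hl hp.two_le hf hk h
  have s3 : l = 3 → ∀ k, k ≠ 0 → f.factorization l + 1 ≤ ((p ^ f) ^ (2 * k) - 1).factorization l := fun h3 k hk =>
    s (2 * k) (by omega) (by
      rw [h3]
      refine three_dvd fun h' => ?_
      have := Nat.prime_three.dvd_of_dvd_pow h'
      exact hlp (h3.trans ((Nat.prime_dvd_prime_iff_eq Nat.prime_three hp).1 this)))
  have g2 : ∀ b, (Nat.gcd 2 b).factorization l = 0 := fun b => fac_gcd_zero (by norm_num) h20
  have g4 : ∀ b, (Nat.gcd 4 b).factorization l = 0 := fun b => fac_gcd_zero (by norm_num) (fac_four hl hl2)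
  cases X with
  | L n =>
    have hn : 2 ≤ n := hok.1
    have h1 : (tt (.L n) p).factorization l = 0 := by
      simp only [tt]
      split_ifs
      · exact fac_one' l
      · exact h20
    by_cases hd : l ∣ dd (.L n) (p ^ f)
    · simp only [dd] at hd ⊢
      have hdn := hd.trans (Nat.gcd_dvd_left _ _)
      have hdq := hd.trans (Nat.gcd_dvd_right _ _)
      have hl3 : 3 ≤ l := by
        have := hl.two_le
        omega
      have hn3 : 3 ≤ n := hl3.trans (Nat.le_of_dvd (by omega) hdn)
      have h2 := le_of_mul hN (dvd_L (q := p ^ f) hn3) l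
      rw [fac_pow_sub hl hl2 hq (n := n) (by omega) hdq] at h2
      have h3 := s 2 (by norm_num) (hdq.trans (sub_dvd (by omega) 2))
      have h4 := fac_gcd_left (l := l) (a := n) (b := p ^ f - 1) (by omega)
      have h5 := fac_gcd_right (l := l) (a := n) (b := p ^ f - 1) (by omega)
      rw [h1]
      omega
    · exact gen (by simp) h1 (fac_small hl hd)
  | C n => exact gen (by simp) h20 (g2 _)
  | U n =>
    have hn : 3 ≤ n := hok.1
    have h1 : (tt (.U n) p).factorization l = 0 := h20
    by_cases hd : l ∣ dd (.U n) (p ^ f)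
    · simp only [dd] at hd ⊢
      have hdn := hd.trans (Nat.gcd_dvd_left _ _)
      have hdq := hd.trans (Nat.gcd_dvd_right _ _)
      have h2 := le_of_mul hN (dvd_U (q := p ^ f) hn) l
      have h3 := s 2 (by norm_num) (hdq.trans (add_dvd (by omega) 1))
      have h4 := fac_gcd_left (l := l) (a := n) (b := p ^ f + 1) (by omega)
      have h5 := fac_gcd_right (l := l) (a := n) (b := p ^ f + 1) (by omega)
      have h6 : (p ^ f + 1).factorization l + n.factorization l ≤
          (if Even n then (p ^ f) ^ n - 1 else (p ^ f) ^ n + 1).factorization l := by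
        by_cases he : Even n
        · rw [if_pos he]
          obtain ⟨m, hm⟩ := he
          have hm0 : m ≠ 0 := by omega
          have e1 : (p ^ f) ^ n = ((p ^ f) ^ 2) ^ m := by rw [hm, ← two_mul, pow_mul]
          have h7 : l ∣ (p ^ f) ^ 2 - 1 := hdq.trans (add_dvd (by omega) 1)
          rw [e1, fac_pow_sub hl hl2 (hq.trans (Nat.le_self_pow (by norm_num) _)) hm0 h7]
          have h8 : (p ^ f + 1).factorization l ≤ ((p ^ f) ^ 2 - 1).factorization l :=
            le_of_dvd (ne_sub hq (by norm_num)) (add_dvd (by omega) 1) l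
          have h9 : n.factorization l = m.factorization l := by
            rw [hm, ← two_mul, Nat.factorization_mul (by norm_num) hm0, Finsupp.add_apply, h20, zero_add]
          omega
        · rw [if_neg he, fac_pow_add hl hl2 hq (Nat.not_even_iff_odd.1 he) hdq]
      rw [h1]
      omega
    · exact gen (by simp) h1 (fac_small hl hd)
  | D n =>
    have hn : 4 ≤ n := hok
    have h1 : (tt (.D n) p).factorization l ≤ if l = 3 then 1 else 0 := by
      simp only [tt]
      rw [Nat.factorization_mul (by split_ifs <;> norm_num) (by split_ifs <;> norm_num), Finsupp.add_apply]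
      have e1 : (if p = 2 then 2 else 8 : ℕ).factorization l = 0 := by
        split_ifs
        · exact h20
        · exact fac_eight hl hl2
      rw [e1, add_zero]
      by_cases h3 : l = 3
      · rw [if_pos h3, h3]
        split_ifs
        · rw [fac_three_three]
        · rw [fac_one']; omega
      · rw [if_neg h3]
        split_ifs
        · rw [fac_prime_small hl Nat.prime_three h3]
        · rw [fac_one']
    by_cases h3 : l = 3
    · rw [if_pos h3] at h1
      have h2 := le_of_mul3 hN (dvd_D (q := p ^ f) hn) l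
      have h4 := s3 h3 1 (by norm_num)
      have h5 := s3 h3 2 (by norm_num)
      have h6 : (dd (.D n) (p ^ f)).factorization l = 0 := g4 _
      rw [h6]
      norm_num at h4 h5
      omega
    · rw [if_neg h3, Nat.le_zero] at h1
      exact gen (by simp) h1 (g4 _)
  | DD n =>
    refine gen (by simp) ?_ (g4 _)
    simp only [tt]
    split_ifs
    · exact h20
    · exact fac_eight hl hl2
  | G2 => exact gen (by simp) h20 (fac_one' l)
  | F4 => exact gen (by simp) h20 (fac_one' l)
  | E6 =>
    by_cases h3 : l = 3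
    · have h1 : (p ^ f) ^ 2 - 1 ≠ 0 := ne_sub hq (by norm_num)
      have h2 : ((p ^ f) ^ 2 - 1) * ((p ^ f) ^ 6 - 1) * ((p ^ f) ^ 8 - 1) ∣ num .E6 (p ^ f) :=
        ⟨((p ^ f) ^ 5 - 1) * ((p ^ f) ^ 9 - 1) * ((p ^ f) ^ 12 - 1), by simp only [num]; ring⟩
      have h2 := le_of_mul3 hN h2 l
      have h4 := s3 h3 1 (by norm_num)
      have h5 := s3 h3 3 (by norm_num)
      have h6 := s3 h3 4 (by norm_num)
      norm_num at h4 h5 h6
      have h7 : (dd .E6 (p ^ f)).factorization l ≤ 1 := by
        refine (fac_gcd_left (by norm_num)).trans ?_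
        rw [h3, fac_three_three]
      have h8 : (tt .E6 p).factorization l = 0 := h20
      omega
    · exact gen (by simp) h20 (fac_gcd_zero (by norm_num) (fac_prime_small hl Nat.prime_three h3))
  | E7 => exact gen (by simp) (fac_one' l) (g2 _)
  | E8 => exact gen (by simp) (fac_one' l) (fac_one' l)
  | TE6 =>
    by_cases h3 : l = 3
    · have h1 : (p ^ f) ^ 2 - 1 ≠ 0 := ne_sub hq (by norm_num)
      have h2 : ((p ^ f) ^ 2 - 1) * ((p ^ f) ^ 6 - 1) * ((p ^ f) ^ 8 - 1) ∣ num .TE6 (p ^ f) :=
        ⟨((p ^ f) ^ 5 + 1) * ((p ^ f) ^ 9 + 1) * ((p ^ f) ^ 12 - 1), by simp only [num]; ring⟩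
      have h2 := le_of_mul3 hN h2 l
      have h4 := s3 h3 1 (by norm_num)
      have h5 := s3 h3 3 (by norm_num)
      have h6 := s3 h3 4 (by norm_num)
      norm_num at h4 h5 h6
      have h7 : (dd .TE6 (p ^ f)).factorization l ≤ 1 := by
        refine (fac_gcd_left (by norm_num)).trans ?_
        rw [h3, fac_three_three]
      have h8 : (tt .TE6 p).factorization l = 0 := h20
      omega
    · exact gen (by simp) h20 (fac_gcd_zero (by norm_num) (fac_prime_small hl Nat.prime_three h3))
  | TD4 =>
    by_cases h3 : l = 3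
    · have h2 : ((p ^ f) ^ 2 - 1) * ((p ^ f) ^ 6 - 1) ∣ num .TD4 (p ^ f) :=
        ⟨_, by simp only [num]; rfl⟩
      have h2 := le_of_mul hN h2 l
      have h4 := s3 h3 1 (by norm_num)
      have h5 := s3 h3 3 (by norm_num)
      norm_num at h4 h5
      have h8 : (tt .TD4 p).factorization l = 1 := by rw [h3]; exact fac_three_three
      have h9 : (dd .TD4 (p ^ f)).factorization l = 0 := fac_one' l
      omega
    · exact gen (fun _ => h3) (fac_prime_small hl Nat.prime_three h3) (fac_one' l)
  | Sz => exact gen (by simp) (fac_one' l) (fac_one' l)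
  | Ree => exact gen (by simp) (fac_one' l) (fac_one' l)
  | TF4 => exact gen (by simp) (fac_one' l) (fac_one' l)

/-- `l = 2` -/
theorem arith_two (X : Sh) {p f : ℕ} (hp : p.Prime) (hf : f ≠ 0) (hok : Ok X p f) (hlp : 2 ≠ p)
    (h : 2 ∣ num X (p ^ f)) :
    f.factorization 2 + (tt X p).factorization 2 + 2 * (dd X (p ^ f)).factorization 2 < (num X (p ^ f)).factorization 2 := by
  have hq : 2 ≤ p ^ f := hp.two_le.trans (Nat.le_self_pow hf p)
  have hN := num_ne hok hp hf
  have hodd : Odd p := hp.odd_of_ne_two hlp.symm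
  have hodd' : Odd (p ^ f) := hodd.pow
  have s : ∀ k, k ≠ 0 → f.factorization 2 + 3 ≤ ((p ^ f) ^ (2 * k) - 1).factorization 2 := fun k hk => vtwo hodd hp.two_le hf hk
  have s1 : f.factorization 2 + 3 ≤ ((p ^ f) ^ 2 - 1).factorization 2 := s 1 one_ne_zero
  have s2 : f.factorization 2 + 3 ≤ ((p ^ f) ^ 4 - 1).factorization 2 := s 2 two_ne_zero
  have s3 : f.factorization 2 + 3 ≤ ((p ^ f) ^ 6 - 1).factorization 2 := s 3 three_ne_zero
  have g2 : ∀ b, (Nat.gcd 2 b).factorization 2 ≤ 1 := fun b => (fac_gcd_left (by norm_num)).trans fac_two_two.le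
  have g3 : ∀ b, (Nat.gcd 3 b).factorization 2 = 0 := fun b => fac_gcd_zero (by norm_num) fac_two_three
  have g4 : ∀ b, (Nat.gcd 4 b).factorization 2 ≤ 2 := fun b => (fac_gcd_left (by norm_num)).trans fac_two_four.le
  -- one factor
  have gen : ∀ t : ℕ, (tt X p).factorization 2 + 2 * (dd X (p ^ f)).factorization 2 ≤ 2 → (p ^ f) ^ 2 - 1 ∣ num X (p ^ f) →
      f.factorization 2 + (tt X p).factorization 2 + 2 * (dd X (p ^ f)).factorization 2 <
        (num X (p ^ f)).factorization 2 := by
    intro _ h1 h2
    have := le_of_dvd hN h2 2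
    omega
  have up : 1 ≤ (p ^ f + 1).factorization 2 := one_le_fac Nat.prime_two (by omega) (by obtain ⟨t, ht⟩ := hodd'; omega)
  have um : 1 ≤ (p ^ f - 1).factorization 2 := one_le_fac Nat.prime_two (by omega) (by obtain ⟨t, ht⟩ := hodd'; omega)
  cases X with
  | L n =>
    have hn : 2 ≤ n := hok.1
    by_cases hn2 : n = 2
    · subst hn2
      refine gen 0 ?_ (dvd_L2 hn)
      have h1 : (tt (.L 2) p).factorization 2 = 0 := by simp [tt]
      have h2 := g2 (p ^ f - 1)
      simp only [dd]
      omega
    · have h1 : (tt (.L n) p).factorization 2 = 1 := by simp only [tt]; rw [if_neg hn2, fac_two_two]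
      by_cases hd : n.factorization 2 = 0
      · refine gen 0 ?_ (dvd_L2 hn)
        have : (dd (.L n) (p ^ f)).factorization 2 = 0 := fac_gcd_zero (by omega) hd
        omega
      · have he : 2 ∣ n := by
          by_contra h'
          exact hd (fac_small Nat.prime_two h')
        have h2 := le_of_mul hN (dvd_L (q := p ^ f) (n := n) (by omega)) 2
        have h3 := fac_two hq hodd' (n := n) (by omega) (even_iff_two_dvd.2 he)
        have h4 := fac_gcd_left (l := 2) (a := n) (b := p ^ f - 1) (by omega)
        have h5 := fac_gcd_right (l := 2) (a := n) (b := p ^ f - 1) (by omega)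
        simp only [dd]
        omega
  | C n =>
    have h1 : (tt (.C n) p).factorization 2 = 1 := fac_two_two
    have h2 := g2 (p ^ f - 1)
    have h3 := le_of_mul hN (dvd_C (q := p ^ f) (n := n) hok.1) 2
    simp only [dd]
    omega
  | U n =>
    have hn : 3 ≤ n := hok.1
    have h1 : (tt (.U n) p).factorization 2 = 1 := fac_two_two
    by_cases hd : n.factorization 2 = 0
    · refine gen 0 ?_ (dvd_U2 (by omega))
      have : (dd (.U n) (p ^ f)).factorization 2 = 0 := fac_gcd_zero (by omega) hd
      omega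
    · have he : 2 ∣ n := by
        by_contra h'
        exact hd (fac_small Nat.prime_two h')
      have h2 := le_of_mul hN (dvd_U (q := p ^ f) (n := n) (by omega)) 2
      rw [if_pos (even_iff_two_dvd.2 he)] at h2
      have h3 := fac_two hq hodd' (n := n) (by omega) (even_iff_two_dvd.2 he)
      have h4 := fac_gcd_left (l := 2) (a := n) (b := p ^ f + 1) (by omega)
      have h5 := fac_gcd_right (l := 2) (a := n) (b := p ^ f + 1) (by omega)
      simp only [dd]
      omega
  | D n =>
    have h1 : (tt (.D n) p).factorization 2 ≤ 3 := by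
      simp only [tt]
      rw [Nat.factorization_mul (by split_ifs <;> norm_num) (by split_ifs <;> norm_num), Finsupp.add_apply]
      have e1 : (if n = 4 then 3 else 1 : ℕ).factorization 2 = 0 := by
        split_ifs
        · exact fac_two_three
        · exact fac_one' 2
      rw [e1, if_neg hlp.symm, fac_two_eight]
    have h2 := g4 ((p ^ f) ^ n - 1)
    have h3 := le_of_mul3 hN (dvd_D (q := p ^ f) (n := n) hok) 2
    simp only [dd]
    omega
  | DD n =>
    have h1 : (tt (.DD n) p).factorization 2 ≤ 3 := by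
      simp only [tt]
      rw [if_neg hlp.symm, fac_two_eight]
    have h2 := g4 ((p ^ f) ^ n + 1)
    have h3 := le_of_mul3 hN (dvd_DD (q := p ^ f) (n := n) hok) 2
    simp only [dd]
    omega
  | G2 =>
    have h1 : (tt .G2 p).factorization 2 = 1 := fac_two_two
    have h2 : (dd .G2 (p ^ f)).factorization 2 = 0 := fac_one' 2
    exact gen 0 (by omega) (Dvd.intro _ rfl)
  | F4 =>
    have h1 : (tt .F4 p).factorization 2 = 1 := fac_two_two
    have h2 : (dd .F4 (p ^ f)).factorization 2 = 0 := fac_one' 2
    exact gen 0 (by omega) (((Dvd.intro _ rfl).mul_right _).mul_right _)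
  | E6 =>
    have h1 : (tt .E6 p).factorization 2 = 1 := fac_two_two
    have h2 : (dd .E6 (p ^ f)).factorization 2 = 0 := g3 _
    exact gen 0 (by omega) (((((Dvd.intro _ rfl).mul_right _).mul_right _).mul_right _).mul_right _)
  | E7 =>
    have h1 : (tt .E7 p).factorization 2 = 0 := fac_one' 2
    have h2 : (dd .E7 (p ^ f)).factorization 2 ≤ 1 := g2 _
    exact gen 0 (by omega) ((((((Dvd.intro _ rfl).mul_right _).mul_right _).mul_right _).mul_right _).mul_right _)
  | E8 =>
    have h1 : (tt .E8 p).factorization 2 = 0 := fac_one' 2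
    have h2 : (dd .E8 (p ^ f)).factorization 2 = 0 := fac_one' 2
    exact gen 0 (by omega) (((((((Dvd.intro _ rfl).mul_right _).mul_right _).mul_right _).mul_right _).mul_right _).mul_right _)
  | TE6 =>
    have h1 : (tt .TE6 p).factorization 2 = 1 := fac_two_two
    have h2 : (dd .TE6 (p ^ f)).factorization 2 = 0 := g3 _
    exact gen 0 (by omega) (((((Dvd.intro _ rfl).mul_right _).mul_right _).mul_right _).mul_right _)
  | TD4 =>
    have h1 : (tt .TD4 p).factorization 2 = 0 := fac_two_three
    have h2 : (dd .TD4 (p ^ f)).factorization 2 = 0 := fac_one' 2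
    exact gen 0 (by omega) ((Dvd.intro _ rfl).mul_right _)
  | Sz => exact absurd hok.1.symm hlp
  | Ree =>
    have h1 : (tt .Ree p).factorization 2 = 0 := fac_one' 2
    have h2 : (dd .Ree (p ^ f)).factorization 2 = 0 := fac_one' 2
    have h3 : f.factorization 2 = 0 := fac_small Nat.prime_two (by
      have := hok.2.1
      rwa [← Nat.not_even_iff_odd, even_iff_two_dvd] at this)
    have h4 := one_le_fac Nat.prime_two hN h
    omega
  | TF4 => exact absurd hok.1.symm hlp

theorem arith (X : Sh) {p f l : ℕ} (hp : p.Prime) (hf : f ≠ 0) (hok : Ok X p f) (hl : l.Prime) (hlp : l ≠ p)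
    (h : l ∣ num X (p ^ f)) :
    f.factorization l + (tt X p).factorization l + 2 * (dd X (p ^ f)).factorization l < (num X (p ^ f)).factorization l := by
  by_cases hl2 : l = 2
  · subst hl2
    exact arith_two X hp hf hok hlp h
  · exact arith_odd X hp hf hok hl hl2 hlp h

end Cfsg.Agent.H941.RC
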