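import Cfsg.Agent.H941.RC.ArithC

/-!
# S4191, `OutAll`: the arithmetic, conclusion (helper941)
-/

set_option autoImplicit false

namespace Cfsg.Agent.H941.RC

open Finset Cfsg.Agent.H902 Cfsg.Agent.H902.Art

theorem dd_fac_self (X : Sh) {p f : ℕ} (hp : p.Prime) (hf : f ≠ 0) (hok : Ok X p f) : (dd X (p ^ f)).factorization p = 0 := by
  have hq : 2 ≤ p ^ f := hp.two_le.trans (Nat.le_self_pow hf p)
  have hpq : p ∣ p ^ f := dvd_pow_self p hf
  have sub : ∀ {k : ℕ}, k ≠ 0 → ∀ a, (Nat.gcd a ((p ^ f) ^ k - 1)).factorization p = 0 := fun {k} hk a =>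
    fac_gcd_zero' (ne_sub hq hk) (fac_small hp fun h => hp.one_lt.ne' (Nat.dvd_one.1 (by
      have h1 : 1 ≤ (p ^ f) ^ k := Nat.one_le_pow _ _ (by omega)
      have := (Nat.dvd_sub_iff_right (show (p ^ f) ^ k - 1 ≤ (p ^ f) ^ k by omega) (dvd_pow hpq hk)).2 h
      rwa [show (p ^ f) ^ k - ((p ^ f) ^ k - 1) = 1 by omega] at this)))
  have sub1 : ∀ a, (Nat.gcd a (p ^ f - 1)).factorization p = 0 := fun a => by
    have := sub one_ne_zero a
    rwa [pow_one] at this
  have add : ∀ {k : ℕ}, k ≠ 0 → ∀ a, (Nat.gcd a ((p ^ f) ^ k + 1)).factorization p = 0 := fun {k} hk a =>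
    fac_gcd_zero' (by omega) (fac_small hp fun h => hp.one_lt.ne' (Nat.dvd_one.1
      ((Nat.dvd_add_right (dvd_pow hpq hk)).1 h)))
  have add1 : ∀ a, (Nat.gcd a (p ^ f + 1)).factorization p = 0 := fun a => by
    have := add one_ne_zero a
    rwa [pow_one] at this
  cases X with
  | L n => exact sub1 _
  | C n => exact sub1 _
  | U n => exact add1 _
  | D n => exact sub (by have : 4 ≤ n := hok; omega) _
  | DD n => exact add (by have : 4 ≤ n := hok; omega) _
  | G2 => exact fac_one' p
  | F4 => exact fac_one' p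
  | E6 => exact sub1 _
  | E7 => exact sub1 _
  | E8 => exact fac_one' p
  | TE6 => exact add1 _
  | TD4 => exact fac_one' p
  | Sz => exact fac_one' p
  | Ree => exact fac_one' p
  | TF4 => exact fac_one' p

theorem fac_small_le {l a : ℕ} (hl : l.Prime) (ha : a.Prime) : a.factorization l ≤ 1 := by
  by_cases h : l = a
  · rw [h, fac_self ha]
  · rw [fac_prime_small hl ha h]; omega

/-- the exponent of `q` is large -/
theorem tt_self (X : Sh) {p f : ℕ} (hp : p.Prime) (hok : Ok X p f) : (tt X p).factorization p + 1 ≤ NN X := by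
  have s2 := fac_small_le hp Nat.prime_two
  have s3 := fac_small_le hp Nat.prime_three
  cases X with
  | L n =>
    have hn : 2 ≤ n := hok.1
    by_cases h : n = 2
    · subst h
      simp [tt, NN]
    · simp only [tt, NN]
      rw [if_neg h]
      have h1 : 6 ≤ n * (n - 1) := Nat.mul_le_mul (show 3 ≤ n by omega) (show 2 ≤ n - 1 by omega)
      omega
  | C n =>
    have hn : 2 ≤ n := hok.1
    simp only [tt, NN]
    nlinarith
  | U n =>
    have hn : 3 ≤ n := hok.1
    simp only [tt, NN]
    have h1 : 6 ≤ n * (n - 1) := Nat.mul_le_mul (show 3 ≤ n by omega) (show 2 ≤ n - 1 by omega)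
    omega
  | D n =>
    have hn : 4 ≤ n := hok
    have h1 : 12 ≤ n * (n - 1) := Nat.mul_le_mul (show 4 ≤ n by omega) (show 3 ≤ n - 1 by omega)
    have h2 : (tt (.D n) p).factorization p ≤ 2 := by
      simp only [tt]
      rw [Nat.factorization_mul (by split_ifs <;> norm_num) (by split_ifs <;> norm_num), Finsupp.add_apply]
      have e1 : (if n = 4 then 3 else 1 : ℕ).factorization p ≤ 1 := by
        split_ifs
        · exact s3
        · rw [fac_one']; omega
      have e2 : (if p = 2 then 2 else 8 : ℕ).factorization p ≤ 1 := by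
        split_ifs with h
        · exact s2
        · rw [fac_eight hp h]; omega
      omega
    simp only [NN]
    omega
  | DD n =>
    have hn : 4 ≤ n := hok
    have h1 : 12 ≤ n * (n - 1) := Nat.mul_le_mul (show 4 ≤ n by omega) (show 3 ≤ n - 1 by omega)
    have h2 : (tt (.DD n) p).factorization p ≤ 2 := by
      simp only [tt]
      split_ifs with h
      · omega
      · rw [fac_eight hp h]; omega
    simp only [NN]
    omega
  | G2 => simp only [tt, NN]; omega
  | F4 => simp only [tt, NN]; omega
  | E6 => simp only [tt, NN]; omega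
  | E7 => simp only [tt, NN]; rw [fac_one']; omega
  | E8 => simp only [tt, NN]; rw [fac_one']; omega
  | TE6 => simp only [tt, NN]; omega
  | TD4 => simp only [tt, NN]; omega
  | Sz => simp only [tt, NN]; rw [fac_one']; omega
  | Ree => simp only [tt, NN]; rw [fac_one']; omega
  | TF4 => simp only [tt, NN]; rw [fac_one']; omega

theorem tt_ne (X : Sh) (p : ℕ) : tt X p ≠ 0 := by
  cases X <;> simp only [tt] <;> (try split_ifs) <;> norm_num

theorem dd_ne (X : Sh) {p f : ℕ} (hp : p.Prime) (hf : f ≠ 0) (hok : Ok X p f) : dd X (p ^ f) ≠ 0 := by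
  have hq : 2 ≤ p ^ f := hp.two_le.trans (Nat.le_self_pow hf p)
  cases X with
  | L n => exact Nat.gcd_ne_zero_right (by omega)
  | C n => exact Nat.gcd_ne_zero_right (by omega)
  | U n => exact Nat.gcd_ne_zero_right (by omega)
  | D n => exact Nat.gcd_ne_zero_left (by norm_num)
  | DD n => exact Nat.gcd_ne_zero_left (by norm_num)
  | G2 => exact one_ne_zero
  | F4 => exact one_ne_zero
  | E6 => exact Nat.gcd_ne_zero_left (by norm_num)
  | E7 => exact Nat.gcd_ne_zero_left (by norm_num)
  | E8 => exact one_ne_zero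
  | TE6 => exact Nat.gcd_ne_zero_left (by norm_num)
  | TD4 => exact one_ne_zero
  | Sz => exact one_ne_zero
  | Ree => exact one_ne_zero
  | TF4 => exact one_ne_zero

theorem lie_arith {X : Sh} {p f M c l : ℕ} (hr : Art.Real X p f M) (hl : l.Prime) (h : l ∣ M) (hM : M ≠ 0)
    (hc : c ∣ tt X p * dd X (p ^ f)) : (c * f).factorization l < M.factorization l := by
  obtain ⟨hp, hf, hok, heq⟩ := hr
  have hf0 : f ≠ 0 := by omega
  have hq : 2 ≤ p ^ f := hp.two_le.trans (Nat.le_self_pow hf0 p)
  have ht := tt_ne X p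
  have hd := dd_ne X hp hf0 hok
  have hN := num_ne hok hp hf0
  have hc0 : c ≠ 0 := fun h0 => by
    rw [h0] at hc
    exact mul_ne_zero ht hd (Nat.eq_zero_of_zero_dvd hc)
  have h1 := le_of_dvd (mul_ne_zero ht hd) hc l
  rw [Nat.factorization_mul ht hd, Finsupp.add_apply] at h1
  have h2 := congrArg (fun n => n.factorization l) heq
  have hqN : (p ^ f) ^ NN X ≠ 0 := pow_ne_zero _ (by omega)
  rw [Nat.factorization_mul hd hM, Nat.factorization_mul hqN hN, Finsupp.add_apply, Finsupp.add_apply] at h2
  have h3 : 1 ≤ M.factorization l := one_le_fac hl hM h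
  rw [Nat.factorization_mul hc0 hf0, Finsupp.add_apply]
  by_cases hlp : l = p
  · subst hlp
    have h4 := dd_fac_self X hl hf0 hok
    have h5 := tt_self X hl hok
    have h6 : f.factorization l < f := Nat.factorization_lt l hf0
    have h7 : ((l ^ f) ^ NN X).factorization l = f * NN X := by
      rw [← pow_mul, hl.factorization_pow, Finsupp.single_eq_same]
    rw [h7] at h2
    have h8 : f * ((tt X l).factorization l + 1) ≤ f * NN X := Nat.mul_le_mul_left f h5
    have h9 : (tt X l).factorization l ≤ f * (tt X l).factorization l := Nat.le_mul_of_pos_left _ (by omega)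
    rw [mul_add, mul_one] at h8
    omega
  · have h4 : ((p ^ f) ^ NN X).factorization l = 0 := by
      refine fac_small hl fun h' => hlp ?_
      exact (Nat.prime_dvd_prime_iff_eq hl hp).1 (hl.dvd_of_dvd_pow (hl.dvd_of_dvd_pow h'))
    rw [h4, zero_add] at h2
    have h5 : l ∣ num X (p ^ f) := by
      by_contra h'
      rw [fac_small hl h'] at h2
      omega
    have h6 := arith X hp hf0 hok hl hlp h5
    omega

end Cfsg.Agent.H941.RC
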